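import Cfsg.Statements.S5521
import Cfsg.Agent.Lib.Golay.Six

set_option autoImplicit false
open Cfsg

namespace Cfsg.Agent.S5521
open CA.Gol


/-- The Mathieu group M₂₄ in its natural action on the 24 coordinate positions of the binary Golay code has minimal base size exactly 7: every set of at most 6 positions is fixed pointwise by some non-identity element of M₂₄, while some set of 7 positions is fixed pointwise only by the identity. -/
theorem result :
    (∀ B : Finset Cfsg.GolayPt, B.card ≤ 6 → ∃ g ∈ Cfsg.M24, g ≠ 1 ∧ ∀ b ∈ B, g b = b) ∧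
    (∃ B : Finset Cfsg.GolayPt, B.card = 7 ∧ ∀ g ∈ Cfsg.M24, (∀ b ∈ B, g b = b) → g = 1) := by
  constructor
  · intro B hB
    obtain ⟨E, hBE, -, hE⟩ := Finset.exists_subsuperset_card_eq (Finset.subset_univ B) hB
      (by rw [Finset.card_univ, card_golayPt]; norm_num)
    have h : 1 < {g | g ∈ M24 ∧ ∀ p ∈ E, g p = p}.ncard := by
      by_cases h : ∃ o ∈ octads, E ⊆ o
      · rw [ncard_fix_six_in hE h]; norm_num
      · rw [ncard_fix_six_out hE h]; norm_num
    obtain ⟨g, hg, hne⟩ := Set.exists_ne_of_one_lt_ncard h 1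
    exact ⟨g, hg.1, hne, fun b hb => hg.2 b (hBE hb)⟩
  · refine ⟨fs 0x80003f, by rw [card_fs]; decide +kernel, fun g hg hf => ?_⟩
    exact chain7 g hg (fixes_of_fix_fs hf (by decide +kernel))

end Cfsg.Agent.S5521
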