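import Cfsg.Statements.S5529
import Cfsg.Agent.Lib.Golay.Misc
import Cfsg.Agent.Lib.Golay.Fam

set_option autoImplicit false
open Cfsg

namespace Cfsg.Agent.S5529
open CA.Gol
open scoped Pointwise

/-- Scott's inequality -/
theorem scott {V : Type*} [AddCommGroup V] [Module ℚ V] [FiniteDimensional ℚ V] {a b c : Module.End ℚ V}
    (h : a * b * c = 1) (S T : Submodule ℚ V) (hS : ∀ v, a v = v → b v = v → v ∈ S)
    (hT : ∀ W : Submodule ℚ V, (∀ v, v - a v ∈ W) → (∀ v, v - b v ∈ W) → W ⊔ T = ⊤) :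
    2 * Module.finrank ℚ V ≤ Module.finrank ℚ (LinearMap.range (1 - a)) + Module.finrank ℚ (LinearMap.range (1 - b)) +
      Module.finrank ℚ (LinearMap.range (1 - c)) + Module.finrank ℚ S + Module.finrank ℚ T := by
  let β : V →ₗ[ℚ] LinearMap.range (1 - a) × LinearMap.range (1 - b) × LinearMap.range (1 - c) :=
    (1 - a).rangeRestrict.prod ((1 - b).rangeRestrict.prod (1 - c).rangeRestrict)
  let δ : LinearMap.range (1 - a) × LinearMap.range (1 - b) × LinearMap.range (1 - c) →ₗ[ℚ] V :=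
    (LinearMap.range (1 - a)).subtype.coprod ((a ∘ₗ (LinearMap.range (1 - b)).subtype).coprod
      ((a * b) ∘ₗ (LinearMap.range (1 - c)).subtype))
  have h1 : LinearMap.range β ≤ LinearMap.ker δ := by
    rintro _ ⟨v, rfl⟩
    have : a (b (c v)) = v := LinearMap.congr_fun h v
    simp [β, δ, this]
  have h2 : LinearMap.ker β ≤ S := by
    intro v hv
    have k1 : v - a v = 0 := congrArg (fun t => t.1.1) (LinearMap.mem_ker.1 hv)
    have k2 : v - b v = 0 := congrArg (fun t => t.2.1.1) (LinearMap.mem_ker.1 hv)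
    exact hS v (sub_eq_zero.1 k1).symm (sub_eq_zero.1 k2).symm
  have ha : ∀ v, v - a v ∈ LinearMap.range δ := fun v => ⟨(⟨_, v, rfl⟩, 0, 0), by simp [δ]⟩
  have h3 := hT (LinearMap.range δ) ha fun v => by
    have k : a (v - b v) ∈ LinearMap.range δ := ⟨(0, ⟨_, v, rfl⟩, 0), by simp [δ]⟩
    have := add_mem (ha (v - b v)) k
    rwa [sub_add_cancel] at this
  have h4 := Submodule.finrank_add_le_finrank_add_finrank (LinearMap.range δ) T
  rw [h3, finrank_top] at h4
  have h5 := Submodule.finrank_mono h1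
  have h6 := Submodule.finrank_mono h2
  have h7 := β.finrank_range_add_finrank_ker
  have h8 := δ.finrank_range_add_finrank_ker
  rw [Module.finrank_prod, Module.finrank_prod] at h8
  omega

/-- the permutation operator -/
def F (g : Equiv.Perm GolayPt) : Module.End ℚ (GolayPt → ℚ) := LinearMap.funLeft ℚ ℚ g

theorem F_apply (g : Equiv.Perm GolayPt) (v : GolayPt → ℚ) (p : GolayPt) : F g v p = v (g p) := rfl

theorem rank_le (g : Equiv.Perm GolayPt) :
    orderOf g * Module.finrank ℚ (LinearMap.range (1 - F g)) + 24 + (orderOf g - 1) * (fixS g).card ≤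
      orderOf g * 24 := by
  classical
  let Q := Quotient (MulAction.orbitRel (Subgroup.zpowers g) GolayPt)
  have h1 : Fintype.card Q ≤ Module.finrank ℚ (LinearMap.ker (1 - F g)) := by
    let m : (Q → ℚ) →ₗ[ℚ] (GolayPt → ℚ) := LinearMap.funLeft ℚ ℚ (Quotient.mk _)
    have hm : Function.Injective m := LinearMap.funLeft_injective_of_surjective _ _ _ Quotient.mk_surjective
    have k : LinearMap.range m ≤ LinearMap.ker (1 - F g) := by
      rintro _ ⟨f, rfl⟩
      funext p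
      have : (Quotient.mk _ (g p) : Q) = Quotient.mk _ p :=
        Quotient.sound ⟨⟨g, Subgroup.mem_zpowers g⟩, rfl⟩
      show f (Quotient.mk _ p) - f (Quotient.mk _ (g p)) = 0
      rw [this, sub_self]
    have := Submodule.finrank_mono k
    rwa [LinearMap.finrank_range_of_inj hm, Module.finrank_fintype_fun_eq_card] at this
  have h2 := (1 - F g).finrank_range_add_finrank_ker
  rw [Module.finrank_fintype_fun_eq_card, card_golayPt] at h2
  have h3 := MulAction.sum_card_fixedBy_eq_card_orbits_mul_card_group (Subgroup.zpowers g) GolayPt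
  rw [Fintype.card_zpowers, ← Finset.add_sum_erase _ _ (Finset.mem_univ 1)] at h3
  have h4 : Fintype.card (MulAction.fixedBy GolayPt (1 : Subgroup.zpowers g)) = 24 := by
    rw [← card_golayPt]; simp
  have h5 := Finset.card_nsmul_le_sum (Finset.univ.erase (1 : Subgroup.zpowers g))
    (fun a => Fintype.card (MulAction.fixedBy GolayPt a)) (fixS g).card fun a _ => by
      rw [← Set.toFinset_card]
      apply Finset.card_le_card
      intro p hp
      rw [Finset.mem_filter] at hp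
      rw [Set.mem_toFinset]
      exact (show Subgroup.zpowers g ≤ MulAction.stabilizer _ p from Subgroup.zpowers_le.2 hp.2) a.2
  rw [Finset.card_erase_of_mem (Finset.mem_univ _), Finset.card_univ, Fintype.card_zpowers, smul_eq_mul] at h5
  have h6 := Nat.mul_le_mul_left (orderOf g) h1
  rw [← h2, mul_add]
  rw [h4, mul_comm] at h3
  change _ = orderOf g * Fintype.card Q at h3
  omega

/-- bound for the rank -/
def bnd (p : ℕ) : ℕ := if p = 2 then 8 else if p = 3 then 12 else if p = 5 then 16 else if p = 7 then 18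
  else if p = 11 then 20 else 22

theorem rank_bnd {g : Equiv.Perm GolayPt} (hg : g ∈ Spor.M23) {p : ℕ} (hp : p ∈ [2, 3, 5, 7, 11, 23])
    (ho : orderOf g = p) : Module.finrank ℚ (LinearMap.range (1 - F g)) ≤ bnd p := by
  have h1 := rank_le g
  have h0 : 0 < (fixS g).card := Finset.card_pos.2 ⟨none, Finset.mem_filter.2 ⟨Finset.mem_univ _, hg.2⟩⟩
  have h2 : ∀ q, q.Prime → orderOf g = q → 24 ≡ (fixS g).card [MOD q] := by
    intro q hq e
    have := Fact.mk hq
    have k := Equiv.Perm.card_fixedPoints_modEq (f := MulAction.toEndHom (M := Equiv.Perm GolayPt) (α := GolayPt) g) (p := q) (n := 1) (by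
      rw [pow_one, ← e]
      exact (map_pow (MulAction.toEndHom (M := Equiv.Perm GolayPt) (α := GolayPt)) g _).symm.trans
        (by rw [pow_orderOf_eq_one, map_one]))
    rw [card_golayPt] at k
    convert k using 1
    rw [Fintype.card_eq_nat_card, ← Nat.card_eq_finsetCard]
    exact Nat.card_congr (Equiv.subtypeEquivRight fun p => by rw [Finset.mem_filter]; exact ⟨fun h => h.2, fun h => ⟨Finset.mem_univ _, h⟩⟩)
  rw [ho] at h1
  simp only [List.mem_cons, List.not_mem_nil, or_false] at hp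
  rcases hp with rfl | rfl | rfl | rfl | rfl | rfl
  · rcases fix_two hg.1 ho with h | h
    · rw [h.2] at h1; show _ ≤ 8; omega
    · omega
  · rcases fix_three hg.1 ho with h | h
    · show _ ≤ 12; omega
    · omega
  · have := h2 5 (by norm_num) ho
    rw [Nat.ModEq] at this; show _ ≤ 16; omega
  · have := h2 7 (by norm_num) ho
    rw [Nat.ModEq] at this; show _ ≤ 18; omega
  · have := h2 11 (by norm_num) ho
    rw [Nat.ModEq] at this; show _ ≤ 20; omega
  · show _ ≤ 22; omega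

theorem ree {x y z : Equiv.Perm GolayPt} (h : x * y * z = 1) (hc : Spor.M23 ≤ Subgroup.closure {x, y}) :
    44 ≤ Module.finrank ℚ (LinearMap.range (1 - F x)) + Module.finrank ℚ (LinearMap.range (1 - F y)) +
      Module.finrank ℚ (LinearMap.range (1 - F z)) := by
  have htr : ∀ p, p ≠ none → ∃ g ∈ Subgroup.closure {x, y}, g p = pt 0 := fun p hp => by
    obtain ⟨g, hg, e1, e2⟩ := trans2 hp.symm
    exact ⟨g, hc ⟨hg, e1⟩, e2⟩
  have hz : z = (x * y)⁻¹ := eq_inv_of_mul_eq_one_right h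
  have := scott (a := F y) (b := F x) (c := F z) (LinearMap.ext fun v => funext fun p => by
      show v (z (x (y p))) = v p
      rw [hz]; simp)
    (Submodule.span ℚ ({Pi.single none 1, 1} : Finset (GolayPt → ℚ)))
    (Submodule.span ℚ ({Pi.single none 1, Pi.single (pt 0) 1} : Finset (GolayPt → ℚ))) ?_ ?_
  · have k1 := (finrank_span_finset_le_card (R := ℚ) ({Pi.single none 1, 1} : Finset (GolayPt → ℚ))).trans
      Finset.card_le_two
    have k2 := (finrank_span_finset_le_card (R := ℚ)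
      ({Pi.single none 1, Pi.single (pt 0) 1} : Finset (GolayPt → ℚ))).trans Finset.card_le_two
    rw [Module.finrank_fintype_fun_eq_card, card_golayPt] at this
    rw [Set.finrank] at k1 k2
    omega
  · intro v h1 h2
    have k : ∀ g ∈ Subgroup.closure {x, y}, ∀ p, v (g p) = v p := by
      intro g hg
      induction hg using Subgroup.closure_induction with
      | mem g hg =>
        rcases hg with rfl | rfl
        · exact congrFun h2
        · exact congrFun h1
      | one => intro p; rfl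
      | mul g k _ _ hg hk => intro p; rw [Equiv.Perm.mul_apply, hg, hk]
      | inv g _ hg => intro p; rw [← hg]; simp
    have e : v = (v none - v (pt 0)) • (Pi.single none 1 : GolayPt → ℚ) + v (pt 0) • (1 : GolayPt → ℚ) := by
      funext p
      by_cases hp : p = none
      · simp [hp]
      · obtain ⟨g, hg, e⟩ := htr p hp
        simp [hp, ← e, k g hg]
    rw [e]
    exact add_mem (Submodule.smul_mem _ _ (Submodule.subset_span (by simp)))
      (Submodule.smul_mem _ _ (Submodule.subset_span (by simp)))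
  · intro W h1 h2
    have k : ∀ g ∈ Subgroup.closure {x, y}, ∀ v, v - F g v ∈ W := by
      intro g hg
      induction hg using Subgroup.closure_induction with
      | mem g hg =>
        rcases hg with rfl | rfl
        · exact h2
        · exact h1
      | one => intro v; rw [show F 1 v = v from rfl, sub_self]; exact zero_mem _
      | mul g k _ _ hg hk =>
        intro v
        have := add_mem (hg v) (hk (F g v))
        rwa [sub_add_sub_cancel] at this
      | inv g _ hg =>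
        intro v
        have := neg_mem (hg (F g⁻¹ v))
        rwa [neg_sub, show F g (F g⁻¹ v) = v from funext fun p => by simp [F_apply]] at this
    rw [eq_top_iff, ← (Pi.basisFun ℚ GolayPt).span_eq, Submodule.span_le]
    rintro _ ⟨p, rfl⟩
    rw [Pi.basisFun_apply]
    by_cases hp : p = none
    · exact Submodule.mem_sup_right (Submodule.subset_span (by simp [hp]))
    · obtain ⟨g, hg, e⟩ := htr p hp
      have e1 : F g (Pi.single (pt 0) 1) = Pi.single p 1 := by
        funext q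
        rw [F_apply, ← e, Pi.single_apply, Pi.single_apply]
        simp
      have k0 : (Pi.single (pt 0) 1 : GolayPt → ℚ) ∈ Submodule.span ℚ
        (({Pi.single none 1, Pi.single (pt 0) 1} : Finset (GolayPt → ℚ)) : Set (GolayPt → ℚ)) :=
        Submodule.subset_span (by simp)
      have := sub_mem (Submodule.mem_sup_right (S := W) k0)
        (Submodule.mem_sup_left (k g hg (Pi.single (pt 0) 1)))
      rwa [e1, sub_sub_cancel] at this

/-- first generator of `M23` -/
def gA : ℕ := 0xbca6a601e24d5053b82625163b45b0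
/-- second generator of `M23` -/
def gB : ℕ := 0xb8d304118b0095174ce12d6466be96

theorem M23_le : Spor.M23 ≤ Subgroup.closure {perm gA, perm gB} := by
  have := le_closure_of_words chain1 (a := perm gA) (b := perm gB) (ws :=
    [[1, 0x7868df, 0xbedb82, 0x9167fd, 0x78e048, 0x724a2b, 0x837538, 0x725f57, 0x7d8994, 0x5ce6b2, 0x960fae, 0x47c4b4, 0x4fa2d0, 0x27361ee, 0x358cb1, 0x1600160, 0x4d0f9, 0x1fbeb24, 0x11f78a, 0xcd63e3, 0xbc228c, 0x453a93, 0x27716],
    [1, 0x24540e9, 0x3f71b, 0x779d13, 0x30df2e, 0x89fb82, 0xcbd8e8, 0x236690, 0xa7b28a, 0x3b713, 0x8ea4, 0x37b7f2, 0x18fc81, 0x265df2, 0x3a1593, 0x5b30ec, 0x78f92d, 0x1f1b581, 0xf40efc, 0x70be2, 0x674515, 0x47abfe],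
    [1, 0x1802610, 0xa4c2a, 0xa16515, 0x290a417, 0x75f512, 0xabb576, 0x1ff0a5, 0x51266a, 0xa7cd90, 0x183c621, 0x6920a6, 0x31bcaf, 0x919ad5, 0x2fc596, 0x16c945d, 0x5be4b7, 0x53d574, 0x2a5471, 0x2b7a56, 0x19f976b],
    [1, 0x5d9875, 0x6f5be, 0x1d87938, 0x71ee3d, 0x116ecf, 0x7b2b0, 0x1014a80, 0x31a225, 0x1347696, 0x922d8a, 0x855940, 0x300641, 0x43017e, 0x1dc6586, 0x3aac1a0, 0x732346, 0x63f522, 0x25e33d2, 0x141791],
    [1, 0x453471, 0x28b176, 0x183d232, 0xfbc4b6, 0x143f736, 0x3414c1, 0x9503a1, 0x35dc55, 0x162fd64, 0x46b6b6, 0x17ea4cf, 0x1325432, 0x8723e0, 0x8db647, 0x18095ac],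
    [1, 0x7b3273, 0x1c0107a]])
    (by rw [code_perm' (by decide +kernel), code_perm' (by decide +kernel)]; decide +kernel)
  exact fun g hg => this ⟨hg.1, fixes23.2 hg.2⟩

/-- certificate for a generating triple -/
def cert (p q r x y wa wb : ℕ) : Bool :=
  inM24 x && inM24 y && Nat.beq (ap x 23) 23 && Nat.beq (ap y 23) 23 && ordIs x p && ordIs y q &&
    ordIs (mul x y) r && Nat.beq (word2 x y 64 wa oneC) gA && Nat.beq (word2 x y 64 wb oneC) gB

theorem cert_sound {p q r x y wa wb : ℕ} (hp : p.Prime) (hq : q.Prime) (hr : r.Prime)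
    (h : cert p q r x y wa wb = true) : ∃ x y z : Cfsg.Spor.M23, orderOf x = p ∧ orderOf y = q ∧ orderOf z = r ∧
      x * y * z = 1 ∧ Subgroup.closure {x, y} = ⊤ := by
  simp only [cert, Bool.and_eq_true, beq_iff] at h
  obtain ⟨⟨⟨⟨⟨⟨⟨⟨h1, h2⟩, h3⟩, h4⟩, h5⟩, h6⟩, h7⟩, h8⟩, h9⟩ := h
  have m : ∀ c, inM24 c = true → ap c 23 = 23 → perm c ∈ Spor.M23 := fun c k1 k2 =>
    ⟨perm_mem_M24 k1, show perm c (pt 23) = pt 23 by rw [perm_pt (inM24_valid k1) (by norm_num), k2]⟩
  refine ⟨⟨_, m x h1 h3⟩, ⟨_, m y h2 h4⟩, (⟨_, m x h1 h3⟩ * ⟨_, m y h2 h4⟩)⁻¹, ?_, ?_, ?_, mul_inv_cancel _, ?_⟩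
  · rw [← Subgroup.orderOf_coe]; exact order_perm h1 hp h5
  · rw [← Subgroup.orderOf_coe]; exact order_perm h2 hq h6
  · rw [orderOf_inv, ← Subgroup.orderOf_coe, ← ordIs_iff hr, Subgroup.coe_mul, code_mul, code_perm' h1, code_perm' h2,
      h7]
  · apply Subgroup.map_injective Spor.M23.subtype_injective
    rw [← MonoidHom.range_eq_map, Subgroup.range_subtype, MonoidHom.map_closure, Set.image_pair]
    refine le_antisymm ?_ (M23_le.trans ?_)
    · rw [Subgroup.closure_le]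
      rintro _ (rfl | rfl)
      exacts [m x h1 h3, m y h2 h4]
    · have k : ∀ w, perm (word2 x y 64 w oneC) ∈ Subgroup.closure {perm x, perm y} := fun w => by
        obtain ⟨g, hg, e⟩ := word2_mem (K := Subgroup.closure {perm x, perm y}) (a := perm x) (b := perm y)
          (Subgroup.subset_closure (by simp)) (Subgroup.subset_closure (by simp)) 64 w (one_mem _)
        rw [code_perm' h1, code_perm' h2, code_one] at e
        rwa [← e, perm_code]
      rw [Subgroup.closure_le]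
      rintro _ (rfl | rfl)
      · rw [← h8]; exact k wa
      · rw [← h9]; exact k wb

/-- the certificates -/
def certs : List (List ℕ) :=
  [[2, 5, 11, 0xbce09b05d51c5ac016883994478a4b, 0xb82b48148a90826722696bd871da2b, 0x157adaebb, 0x1dbaeebd57],
    [2, 5, 23, 0xbd6c89b88a7c8413c134598b11b580, 0xb8c337d0402c1cc8a9154b6445d8e6, 0x7756b75eb, 0x35aeb6ef76],
    [2, 7, 7, 0xb91f3a3628a824b6293039836188ae, 0xba636a4028798625814caca67239a5, 0xaaef6b75, 0x76b5eeb77],
    [2, 7, 11, 0xbc5020cad03b8804a975798ad1d26c, 0xbadb4385e6440ae959954cc628a880, 0x156f7d6d6, 0x3b7576ab],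
    [2, 7, 23, 0xbc9ea9d810ab8ac15123399a142c91, 0xbdaab4a141a3e7269dc26140624470, 0x5b7aeaf5, 0x1b5bbb76],
    [2, 11, 11, 0xbc2a42c976789a78a921602741b906, 0xbae760406e144c7435e5aa42454994, 0xbbeeb77, 0x2d7d6f55a],
    [2, 11, 23, 0xbac719ca867b14eb35283c020a88a4, 0xbc24a7808b2d42c8d8c3489cda4d07, 0x7aefaed57, 0x1bdedbb6d],
    [2, 23, 23, 0xba0b4740d27cd646a9361c6ac38820, 0xb9ccdb550ba4522004722326a741e5, 0x37deefb6, 0x3b5eb6bde],
    [3, 3, 11, 0xbd9742bd2a14dac41c15805c61c891, 0xbc136986347d648315c33904b629a0, 0x199259966, 0x126494b3],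
    [3, 3, 23, 0xbcab410d707310f4aa2509da4b00d3, 0xb85f59b236a2085724eb51a4018a0d, 0x12d4ad4a, 0x56d34cd5],
    [3, 5, 5, 0xbae239b8d40b1b212928055e7858a4, 0xbd90f54662aba0d6068920ca602e47, 0x7bb5dc, 0x36b5bba],
    [3, 5, 7, 0xbda93a8906701b18286c92ca921c2f, 0xbbe5423ac881d4c094d1135201d66b, 0x1b4e4caf, 0x169365c],
    [3, 5, 11, 0xbc6804c9477c1b3459857196410475, 0xbd9c8998f0ac82b2a46a63e2da1002, 0xf4b275, 0x34b33ad],
    [3, 5, 23, 0xb96a3b40090b9b459a4851e7163c44, 0xbbe909b5414ac0c15a26aba451a0e4, 0x2edb2ac, 0xfbaa76b],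
    [3, 7, 7, 0xb95149be498b80c508c43c075b2da1, 0xb8d2c7c4d0584966d14e92005a88f3, 0x57e9e5, 0x1e6d6b2],
    [3, 7, 11, 0xb89b4726309006b429ec09ac7a9493, 0xbda510184da15957b9684866a21e03, 0x1dcd493, 0x557259b],
    [3, 7, 23, 0xbaea36c1227c593351c43d8a154900, 0xb94d47ae339344361ec022035825ca, 0x169bb5cd, 0x7c9b39a],
    [3, 11, 11, 0xb85a23d870798b3a29c8626a402e51, 0xb804c50dd4b4aaf5b4a924cf030628, 0x3372bd2, 0x1fb57df],
    [3, 11, 23, 0xba991b48815d5ee6ce063951418920, 0xb9e829c6d24954372ead406002198f, 0xed2eb, 0x32b2bb],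
    [3, 23, 23, 0xbda54395a11c5cc5aa0413ea034d28, 0xbd1f0912cb514c71a5d504d824062d, 0x97269ce, 0x1954f3c],
    [5, 5, 5, 0xbd15279c2e434ac5ccd51c449b4080, 0xb950a9ae34230c01daad9260e088ef, 0x1b6a45d, 0xd637a],
    [5, 5, 7, 0xbd40fa087072da199931658e59208a, 0xbc19498d2293c96534a80ace60562e, 0xa52191, 0x5db71c],
    [5, 5, 11, 0xbc2a54016f885a6b29839d13211c8e, 0xbc0b4b12a07b04b945a39982e4a147, 0x595dc93, 0xe9ad8e],
    [5, 5, 23, 0xb8635349b6438a36281021e824cdeb, 0xb84d46d54e64844b2df33c10349620, 0x7d2eeda, 0x9ea695],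
    [5, 7, 7, 0xba6153b031719a4509687ce432da80, 0xba8106488d39a71495c21bd145d436, 0x1a9a54, 0x35b6ea4],
    [5, 7, 11, 0xb9ca340195791ab9bad13065450930, 0xbc555114e1b50135b5c89406679189, 0x7a4637, 0x79a550],
    [5, 7, 23, 0xbbad440255984ca7b5833a4a25c604, 0xb88c3649c489608ad1275cd417b416, 0x4c57ab, 0xcbde7b],
    [5, 11, 11, 0xbdaac68a5330dca79234594e880520, 0xb9cc5946cd0b9337918352170052a2, 0x5c6d5, 0xef34a],
    [5, 11, 23, 0xbb49614a919d6056010f3ac6a3242e, 0xb84c54d5b1a0c445a2409bacf53207, 0x45a88bc, 0x63eca2],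
    [5, 23, 23, 0xbaacb93a30a24a11306f01cc49a2ad, 0xb9481119335818345250b2a2d71eaf, 0x9e212f, 0x3e86e74],
    [7, 7, 7, 0xbc685a8e049bdaa648e9b082832dc0, 0xbd02f99ed22a4ce03070245b55890a, 0x1470b79, 0xe13382],
    [7, 7, 11, 0xbc42773c10a110aa9a695d8a263643, 0xb8eb2506258092063c9432ec899dae, 0x9699ac, 0x22b14c],
    [7, 7, 23, 0xb90ebb32350c9af1d1c234d30028a8, 0xbbec75d03050d0d9309549853045c5, 0x1f503d4, 0x3fb63a],
    [7, 11, 11, 0xb906c9c221396ab699f4b092e40152, 0xb862e52cb33d922a3648180d56120f, 0x1bf61da, 0x2c6471],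
    [7, 11, 23, 0xb94ce1a4f104e146aaa813d8bb1241, 0xb9c2e1c8460426babdac2268889556, 0x19c4fac, 0xce1147],
    [7, 23, 23, 0xbd8b2106209ac87ab9a91be143310a, 0xbd1e382152208a6984e9b2d8e045b5, 0x2ad459d, 0xa412e9],
    [11, 11, 11, 0xbb221989a7919684b943b1690782a4, 0xbb66138ea93490a8adc4b50ac1020f, 0x65f7fa, 0x434c64],
    [11, 11, 23, 0xb81d2b25e298594240eb1a0ad3562a, 0xbb088359347c0eb18ab299620539a1, 0x1fe70bc, 0xf6297d],
    [11, 23, 23, 0xb850dac476a40463b9245024562df3, 0xb896a20dd5b3012a150d7c52184cc7, 0xe5aa0e, 0x559d97],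
    [23, 23, 23, 0xbaed30b2a0a404773e511a5066a8a4, 0xb99100b1b19bd2ea9492b500a59c43, 0x1844114, 0x7b75cd]]

theorem certs_ok : ∀ p ∈ [2, 3, 5, 7, 11, 23], ∀ q ∈ [2, 3, 5, 7, 11, 23], ∀ r ∈ [2, 3, 5, 7, 11, 23],
    p ≤ q → q ≤ r → ¬ (p = 2 ∧ q = 2) →
    ¬ ((p = 2 ∧ q = 3) ∨ (p = 2 ∧ q = 5 ∧ r = 5) ∨ (p = 2 ∧ q = 5 ∧ r = 7) ∨ (p = 3 ∧ q = 3 ∧ r ≤ 7)) →
    anyL certs (fun l => Nat.beq (nth l 0) p && Nat.beq (nth l 1) q && Nat.beq (nth l 2) r &&
      cert p q r (nth l 3) (nth l 4) (nth l 5) (nth l 6)) = true := by decide +kernel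

theorem bnd_lt : ∀ p ∈ [2, 3, 5, 7, 11, 23], ∀ q ∈ [2, 3, 5, 7, 11, 23], ∀ r ∈ [2, 3, 5, 7, 11, 23],
    ((p = 2 ∧ q = 3) ∨ (p = 2 ∧ q = 5 ∧ r = 5) ∨ (p = 2 ∧ q = 5 ∧ r = 7) ∨ (p = 3 ∧ q = 3 ∧ r ≤ 7)) →
    bnd p + bnd q + bnd r < 44 := by decide +kernel

theorem prime_mem {p : ℕ} (hp : p.Prime) (h : p ∣ 10200960) : p ∈ [2, 3, 5, 7, 11, 23] := by
  rw [show 10200960 = 2 ^ 7 * 3 ^ 2 * 5 * 7 * 11 * 23 by norm_num] at h
  simp only [hp.dvd_mul] at h
  rcases h with ((((h | h) | h) | h) | h) | h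
  · simp [(Nat.prime_dvd_prime_iff_eq hp Nat.prime_two).1 (hp.dvd_of_dvd_pow h)]
  · simp [(Nat.prime_dvd_prime_iff_eq hp Nat.prime_three).1 (hp.dvd_of_dvd_pow h)]
  · simp [(Nat.prime_dvd_prime_iff_eq hp (by norm_num)).1 h]
  · simp [(Nat.prime_dvd_prime_iff_eq hp (by norm_num)).1 h]
  · simp [(Nat.prime_dvd_prime_iff_eq hp (by norm_num)).1 h]
  · simp [(Nat.prime_dvd_prime_iff_eq hp (by norm_num)).1 h]


/-- Generation of the Mathieu group M₂₃ (the stabiliser of a point in the Mathieu group M₂₄ acting on 24 points) by triples of prime orders. Let p ≤ q ≤ r be primes dividing |M₂₃| = 10200960 = 2⁷·3²·5·7·11·23, not both p and q equal to 2. Then M₂₃ contains elements x, y, z of orders p, q, r with xyz = 1 and ⟨x, y⟩ = M₂₃ if and only if (p, q, r) is none of: (2, 3, r) for any r, (2, 5, 5), (2, 5, 7), (3, 3, 3), (3, 3, 5), (3, 3, 7). -/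
theorem result (p q r : ℕ) (hp : p.Prime) (hq : q.Prime)
    (hr : r.Prime) (hpq : p ≤ q) (hqr : q ≤ r) (hp2 : ¬ (p = 2 ∧ q = 2))
    (hdvd : p ∣ 10200960 ∧ q ∣ 10200960 ∧ r ∣ 10200960) :
    (∃ x y z : Cfsg.Spor.M23, orderOf x = p ∧ orderOf y = q ∧ orderOf z = r ∧ x * y * z = 1 ∧
        Subgroup.closure {x, y} = ⊤) ↔
      ¬ ((p = 2 ∧ q = 3) ∨ (p = 2 ∧ q = 5 ∧ r = 5) ∨ (p = 2 ∧ q = 5 ∧ r = 7) ∨ (p = 3 ∧ q = 3 ∧ r ≤ 7)) := by
  have mp := prime_mem hp hdvd.1
  have mq := prime_mem hq hdvd.2.1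
  have mr := prime_mem hr hdvd.2.2
  constructor
  · rintro ⟨x, y, z, hx, hy, hz, h1, h2⟩ hbad
    have k := ree (x := x) (y := y) (z := z) (congrArg Subtype.val h1) (by
      have := congrArg (Subgroup.map Spor.M23.subtype) h2
      rw [← MonoidHom.range_eq_map, Subgroup.range_subtype, MonoidHom.map_closure, Set.image_pair] at this
      exact this.ge)
    have k1 := rank_bnd x.2 mp (by rw [Subgroup.orderOf_coe, hx])
    have k2 := rank_bnd y.2 mq (by rw [Subgroup.orderOf_coe, hy])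
    have k3 := rank_bnd z.2 mr (by rw [Subgroup.orderOf_coe, hz])
    have := bnd_lt p mp q mq r mr hbad
    omega
  · intro h
    obtain ⟨l, -, hl⟩ := anyL_iff.1 (certs_ok p mp q mq r mr hpq hqr hp2 h)
    rw [Bool.and_eq_true] at hl
    exact cert_sound hp hq hr hl.2

end Cfsg.Agent.S5529
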