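import Cfsg.Statements.S5562
import Cfsg.Agent.Lib.FStar.Invol

set_option autoImplicit false
open Cfsg

namespace Cfsg.Agent.S5562

/-- Let G be a finite group, d an involution of G whose conjugates pairwise have products of odd order, and x any involution of G. Then the conjugacy class of d is the disjoint union, over the conjugates a of d commuting with x, of the sets of conjugates of d commuting with ax: every conjugate of d commutes with ax for exactly one conjugate a of d that commutes with x. -/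
theorem result {G : Type*} [Group G] [Finite G] (d : G) (hd : orderOf d = 2)
    (hodd : ∀ a ∈ conjugatesOf d, ∀ b ∈ conjugatesOf d, Odd (orderOf (a * b)))
    (x : G) (hx : orderOf x = 2) :
    ∀ e ∈ conjugatesOf d,
      ∃! a : G, a ∈ conjugatesOf d ∧ Commute a x ∧ Commute e (a * x) := by
  have hd2 : d * d = 1 := CA.Inv.mul_self_of_orderOf hd
  have hx2 : x * x = 1 := CA.Inv.mul_self_of_orderOf hx
  have hD2 : ∀ e ∈ conjugatesOf d, e * e = 1 := by
    intro e he
    obtain ⟨c, rfl⟩ := isConj_iff.1 he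
    exact CA.Inv.conj_mul_self hd2 c
  have hconj : ∀ g : G, ∀ e ∈ conjugatesOf d, g * e * g⁻¹ ∈ conjugatesOf d :=
    fun g e he => IsConj.trans he (isConj_iff.2 ⟨g, rfl⟩)
  -- commuting conjugates are equal
  have hcomm : ∀ a ∈ conjugatesOf d, ∀ b ∈ conjugatesOf d, Commute a b → a = b := by
    intro a ha b hb h
    have h1 := (CA.Inv.commute_iff_sq (hD2 a ha) (hD2 b hb)).1 h
    have h2 := hodd a ha b hb
    have h3 : a * b = 1 := CA.Inv.eq_one_of_pow_coprime h1 (pow_orderOf_eq_one _)
      (Nat.coprime_two_left.2 h2)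
    rw [← CA.Inv.mul_mul_cancel (hD2 a ha) b, h3, mul_one]
  intro e he
  have he2 := hD2 e he
  -- uniqueness
  have huniq : ∀ a, a ∈ conjugatesOf d → Commute a x → Commute e (a * x) →
      ∀ n : ℕ, Odd n → (e * a) ^ n = 1 → (e * x) ^ n = a * x := by
    intro a ha hax hea n hn hpow
    have hz2 : (a * x) * (a * x) = 1 := by
      have := (CA.Inv.commute_iff_sq (hD2 a ha) hx2).1 hax
      rwa [pow_two] at this
    have hc : Commute (e * a) (a * x) := hea.mul_left ((Commute.refl a).mul_right hax)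
    have e1 : e * x = (e * a) * (a * x) := by
      rw [mul_assoc, CA.Inv.mul_mul_cancel (hD2 a ha)]
    rw [e1, hc.mul_pow, hpow, one_mul]
    obtain ⟨m, rfl⟩ := hn
    rw [pow_succ, pow_mul, pow_two, hz2, one_pow, one_mul]
  have huniq2 : ∀ a b, a ∈ conjugatesOf d ∧ Commute a x ∧ Commute e (a * x) →
      b ∈ conjugatesOf d ∧ Commute b x ∧ Commute e (b * x) → a = b := by
    rintro a b ⟨ha, ha1, ha2⟩ ⟨hb, hb1, hb2⟩
    have o1 := hodd e he a ha
    have o2 := hodd e he b hb
    have k1 := huniq a ha ha1 ha2 _ (o1.mul o2) (by rw [pow_mul, pow_orderOf_eq_one, one_pow])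
    have k2 := huniq b hb hb1 hb2 _ (o1.mul o2) (by rw [pow_mul', pow_orderOf_eq_one, one_pow])
    exact mul_right_cancel (k1.symm.trans k2)
  suffices h : ∃ a, a ∈ conjugatesOf d ∧ Commute a x ∧ Commute e (a * x) by
    obtain ⟨a, ha⟩ := h
    exact ⟨a, ha, fun b hb => huniq2 b a hb ha⟩
  by_cases ho : Odd (orderOf (e * x))
  · obtain ⟨k, hk⟩ := CA.Inv.conj_of_odd he2 hx2 ho
    refine ⟨x, hk ▸ hconj _ _ he, Commute.refl x, ?_⟩
    rw [hx2]; exact Commute.one_right e
  · obtain ⟨z, ⟨m, hzm, hm⟩, hz2, hz1, hez, hxz, -, -⟩ := CA.Inv.exists_central_of_even he2 hx2 ho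
    -- `m` is odd
    have hmo : Odd m := by
      have h1 := hodd e he _ (hconj x e he)
      rw [CA.Inv.inv_eq_self hx2, show e * (x * e * x) = (e * x) ^ 2 by rw [pow_two]; group,
        orderOf_pow' _ two_ne_zero, hm, Nat.gcd_mul_right_left] at h1
      simpa using h1
    obtain ⟨j, hj⟩ := hmo
    refine ⟨z * x, ?_, Commute.mul_left ?_ (Commute.refl x), ?_⟩
    · have := CA.Inv.conj_left_eq he2 hx2 j
      have e1 : z * x = (e * x) ^ (2 * (j : ℤ)) * e := by
        rw [hzm, hj, pow_succ, mul_assoc, mul_assoc, hx2, mul_one]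
        norm_cast
      rw [e1, ← this]
      exact hconj _ _ he
    · exact hxz.symm
    · rw [mul_assoc, hx2, mul_one]; exact hez

end Cfsg.Agent.S5562
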